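import Cfsg.Agent.H203.LSDef

/-!
# The Landazuri-Seitz bound 20 from an extraspecial group `5^(1+2)` with rational centre (helper517)

`T` simple, `x`, `s ∈ T`, `x ^ 5 = 1`, `y = s x s⁻¹`, `s y s⁻¹ = x ^ 3`, `z = [x, y] ≠ 1` commutes with `x`. Then
`z ^ s = z ^ 2`, the relations lift to all central extensions, and `LS 5 20 T`.
-/

set_option autoImplicit false

universe u v w

namespace Cfsg.Agent.H517.EP

open Cfsg.Agent.H203.LS

section grp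

variable {P : Type*} [Group P]

/-- `[Z, X ^ n] = c ^ n` -/
theorem comm_pow {Z X c : P} (h : Z * X = c * (X * Z)) (hcX : X * c = c * X) (n : ℕ) :
    Z * X ^ n = c ^ n * (X ^ n * Z) := by
  induction n with
  | zero => simp
  | succ n ih =>
    have h1 : X ^ n * c = c * X ^ n := ((show Commute X c from hcX).pow_left n)
    calc Z * X ^ (n + 1) = (Z * X ^ n) * X := by rw [pow_succ, mul_assoc]
      _ = c ^ n * (X ^ n * Z) * X := by rw [ih]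
      _ = c ^ n * (X ^ n * (Z * X)) := by group
      _ = c ^ n * (X ^ n * c * (X * Z)) := by rw [h]; group
      _ = c ^ (n + 1) * (X ^ (n + 1) * Z) := by rw [h1]; group

theorem pow_comm {X Y Z : P} (h : X * Y = Z * (Y * X)) (hZ : Z * X = X * Z) (n : ℕ) :
    X ^ n * Y = Z ^ n * (Y * X ^ n) := by
  induction n with
  | zero => simp
  | succ n ih =>
    have h1 : X ^ n * Z = Z * X ^ n := ((show Commute X Z from hZ.symm).pow_left n)
    calc X ^ (n + 1) * Y = X ^ n * (X * Y) := by rw [pow_succ, mul_assoc]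
      _ = X ^ n * Z * (Y * X) := by rw [h]; group
      _ = Z * (X ^ n * Y) * X := by rw [h1]; group
      _ = Z ^ (n + 1) * (Y * X ^ (n + 1)) := by rw [ih]; group

theorem one_of_pows {c : P} (h8 : c ^ 8 = 1) (h5 : c ^ 5 = 1) : c = 1 := by
  have h1 : c ^ 16 = 1 := by rw [show (16 : ℕ) = 8 * 2 from rfl, pow_mul, h8, one_pow]
  have h2 : c ^ 15 = 1 := by rw [show (15 : ℕ) = 5 * 3 from rfl, pow_mul, h5, one_pow]
  have h3 : c ^ 16 = c ^ 15 * c := pow_succ c 15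
  rw [h1, h2, one_mul] at h3
  exact h3.symm

/-- the consequences of the relations when `[Z, X] = 1` -/
theorem base {X S k Y Z : P} (hk : ∀ g, g * k = k * g) (h5 : ∀ g, g * X ^ 5 = X ^ 5 * g) (hY : Y = S * X * S⁻¹)
    (h3 : S * Y * S⁻¹ = X ^ 3 * k) (hZ : Z = X * Y * X⁻¹ * Y⁻¹) (hzx : Z * X = X * Z) :
    Z ^ 5 = 1 ∧ S * Z * S⁻¹ = Z ^ 2 ∧ Z * Y = Y * Z := by
  have e1 : X * Y = Z * (Y * X) := by rw [hZ]; group
  have p3 := pow_comm e1 hzx 3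
  have p5 := pow_comm e1 hzx 5
  have z5 : Z ^ 5 = 1 := by
    rw [← h5 Y] at p5
    exact (mul_eq_right.1 p5.symm)
  have e2 : S * Z * S⁻¹ = Z ^ 2 := by
    have h1 : S * Z * S⁻¹ = Y * (X ^ 3 * k) * Y⁻¹ * (X ^ 3 * k)⁻¹ := by
      rw [← h3, hZ]
      conv_lhs => rw [show S * (X * Y * X⁻¹ * Y⁻¹) * S⁻¹ = (S * X * S⁻¹) * (S * Y * S⁻¹) * (S * X * S⁻¹)⁻¹ *
        (S * Y * S⁻¹)⁻¹ from by group, ← hY]
    have h2 : Y * (X ^ 3 * k) * Y⁻¹ * (X ^ 3 * k)⁻¹ = Y * X ^ 3 * Y⁻¹ * (X ^ 3)⁻¹ := by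
      calc Y * (X ^ 3 * k) * Y⁻¹ * (X ^ 3 * k)⁻¹ = Y * X ^ 3 * (k * Y⁻¹) * k⁻¹ * (X ^ 3)⁻¹ := by group
        _ = Y * X ^ 3 * (Y⁻¹ * k) * k⁻¹ * (X ^ 3)⁻¹ := by rw [← hk Y⁻¹]
        _ = _ := by group
    have h4 : Y * X ^ 3 * Y⁻¹ * (X ^ 3)⁻¹ = (Z ^ 3)⁻¹ := by
      rw [eq_inv_iff_mul_eq_one]
      have h6 : (X ^ 3)⁻¹ * Z ^ 3 = Z ^ 3 * (X ^ 3)⁻¹ :=
        ((show Commute X Z from hzx.symm).pow_pow 3 3).inv_left
      calc Y * X ^ 3 * Y⁻¹ * (X ^ 3)⁻¹ * Z ^ 3 = Y * X ^ 3 * Y⁻¹ * ((X ^ 3)⁻¹ * Z ^ 3) := by group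
        _ = Y * X ^ 3 * Y⁻¹ * (Z ^ 3 * (X ^ 3)⁻¹) := by rw [h6]
        _ = (Z ^ 3)⁻¹ * (Z ^ 3 * (Y * X ^ 3)) * Y⁻¹ * (Z ^ 3 * (X ^ 3)⁻¹) := by group
        _ = (Z ^ 3)⁻¹ * (X ^ 3 * Y) * Y⁻¹ * (Z ^ 3 * (X ^ 3)⁻¹) := by rw [p3]
        _ = (Z ^ 3)⁻¹ * (X ^ 3 * (Z ^ 3)) * (X ^ 3)⁻¹ := by group
        _ = (Z ^ 3)⁻¹ * (Z ^ 3 * X ^ 3) * (X ^ 3)⁻¹ := by
          rw [((show Commute X Z from hzx.symm).pow_pow 3 3).eq]
        _ = 1 := by group
    rw [h1, h2, h4, inv_eq_iff_mul_eq_one, ← pow_add]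
    exact z5
  refine ⟨z5, e2, ?_⟩
  have h1 : (S * Z * S⁻¹) * Y = Y * (S * Z * S⁻¹) := by
    rw [hY]
    calc (S * Z * S⁻¹) * (S * X * S⁻¹) = S * (Z * X) * S⁻¹ := by group
      _ = S * (X * Z) * S⁻¹ := by rw [hzx]
      _ = _ := by group
  rw [e2] at h1
  have h2 : Commute (Z ^ 2) Y := h1
  have h4 := (h2.pow_left 3).eq
  have h6 : (Z ^ 2) ^ 3 = Z := by
    rw [← pow_mul, show 2 * 3 = 5 + 1 from rfl, pow_succ, z5, one_mul]
  rw [h6] at h4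
  exact h4

end grp

section lift

variable {P : Type v} {T : Type u} [Group P] [Group T] {π : P →* T}

/-- **The relations lift** to central extensions. -/
theorem lift (hc : ∀ c : P, π c = 1 → ∀ g : P, g * c = c * g) {X S Y Z : P} (hY : Y = S * X * S⁻¹)
    (hZ : Z = X * Y * X⁻¹ * Y⁻¹) (hx : π X ^ 5 = 1) (h3 : π S * π Y * (π S)⁻¹ = π X ^ 3)
    (hz : π Z * π X = π X * π Z) :
    Z * X = X * Z ∧ Z ^ 5 = 1 ∧ S * Z * S⁻¹ = Z ^ 2 ∧ Z * Y = Y * Z := by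
  -- downstairs
  have hY' : π Y = π S * π X * (π S)⁻¹ := by rw [hY]; simp
  have hZ' : π Z = π X * π Y * (π X)⁻¹ * (π Y)⁻¹ := by rw [hZ]; simp
  obtain ⟨z5, ez, -⟩ := base (k := (1 : T)) (fun g => by rw [mul_one, one_mul]) (fun g => by rw [hx, mul_one, one_mul])
    hY' (by rw [mul_one]; exact h3) hZ' hz
  -- upstairs
  obtain ⟨k, hk⟩ : ∃ k, k = (X ^ 3)⁻¹ * (S * Y * S⁻¹) := ⟨_, rfl⟩
  have hk1 : π k = 1 := by
    rw [hk, map_mul, map_inv, map_pow, map_mul, map_mul, map_inv, h3, inv_mul_cancel]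
  have hkc := hc k hk1
  have hSY : S * Y * S⁻¹ = X ^ 3 * k := by rw [hk]; group
  have hX5 := hc (X ^ 5) (by rw [map_pow, hx])
  obtain ⟨c, hcd⟩ : ∃ c, c = Z * X * Z⁻¹ * X⁻¹ := ⟨_, rfl⟩
  have hc1 : π c = 1 := by
    rw [hcd, map_mul, map_mul, map_mul, map_inv, map_inv, hz]; group
  have hcc := hc c hc1
  have e1 : Z * X = c * (X * Z) := by rw [hcd]; group
  have hcp := comm_pow e1 (hcc X)
  have c5 : c ^ 5 = 1 := by
    have h1 := hcp 5
    rw [hX5 Z] at h1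
    exact mul_eq_right.1 h1.symm
  -- conjugation by `S ^ 4`
  obtain ⟨k', hk'⟩ : ∃ k', k' = Z⁻¹ * (S ^ 4 * Z * (S ^ 4)⁻¹) := ⟨_, rfl⟩
  have hk1' : π k' = 1 := by
    have h1 : π S ^ 4 * π Z * (π S ^ 4)⁻¹ = π Z := by
      have h2 : ∀ n : ℕ, π S * (π Z) ^ n * (π S)⁻¹ = (π Z) ^ (2 * n) := by
        intro n
        have h4 : π S * (π Z) ^ n * (π S)⁻¹ = (π S * π Z * (π S)⁻¹) ^ n := (conj_pow).symm
        rw [h4, ez, ← pow_mul]
      have h4 : π S ^ 4 * π Z * (π S ^ 4)⁻¹ = π S * (π S * (π S * (π S * (π Z) ^ 1 * (π S)⁻¹) * (π S)⁻¹) * (π S)⁻¹) *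
          (π S)⁻¹ := by simp only [pow_succ, pow_zero, one_mul, mul_inv_rev, mul_assoc]
      rw [h4, h2, h2, h2, h2, show 2 * (2 * (2 * (2 * 1))) = 5 * 3 + 1 from rfl, pow_succ, pow_mul, z5, one_pow, one_mul]
    rw [hk', map_mul, map_inv, map_mul, map_mul, map_inv, map_pow, h1, inv_mul_cancel]
  have hkc' := hc k' hk1'
  have hSZ : S ^ 4 * Z * (S ^ 4)⁻¹ = Z * k' := by rw [hk']; group
  have hS2 : ∀ W : P, S ^ 2 * W * (S ^ 2)⁻¹ = S * (S * W * S⁻¹) * S⁻¹ := fun W => by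
    simp only [pow_succ, pow_zero, one_mul, mul_inv_rev, mul_assoc]
  have hS2X : S ^ 2 * X * (S ^ 2)⁻¹ = X ^ 3 * k := by rw [hS2, ← hY, hSY]
  have hS4X : S ^ 4 * X * (S ^ 4)⁻¹ = X ^ 9 * k ^ 4 := by
    have h1 : S ^ 4 * X * (S ^ 4)⁻¹ = S ^ 2 * (S ^ 2 * X * (S ^ 2)⁻¹) * (S ^ 2)⁻¹ := by group
    have h2 : S ^ 2 * (X ^ 3 * k) * (S ^ 2)⁻¹ = (S ^ 2 * X * (S ^ 2)⁻¹) ^ 3 * k := by
      rw [conj_pow]
      calc S ^ 2 * (X ^ 3 * k) * (S ^ 2)⁻¹ = S ^ 2 * X ^ 3 * (k * (S ^ 2)⁻¹) := by group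
        _ = S ^ 2 * X ^ 3 * ((S ^ 2)⁻¹ * k) := by rw [← hkc (S ^ 2)⁻¹]
        _ = _ := by group
    have h4 : Commute (X ^ 3) k := hkc (X ^ 3)
    rw [h1, hS2X, h2, hS2X, h4.mul_pow, ← pow_mul]
    group
  have e9 : Z * X ^ 9 = c * (X ^ 9 * Z) := by
    have h1 : (S ^ 4 * Z * (S ^ 4)⁻¹) * (S ^ 4 * X * (S ^ 4)⁻¹) = c * ((S ^ 4 * X * (S ^ 4)⁻¹) * (S ^ 4 * Z * (S ^ 4)⁻¹)) := by
      calc (S ^ 4 * Z * (S ^ 4)⁻¹) * (S ^ 4 * X * (S ^ 4)⁻¹) = S ^ 4 * (Z * X) * (S ^ 4)⁻¹ := by group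
        _ = (S ^ 4 * c) * (X * Z) * (S ^ 4)⁻¹ := by rw [e1]; group
        _ = (c * S ^ 4) * (X * Z) * (S ^ 4)⁻¹ := by rw [hcc (S ^ 4)]
        _ = _ := by group
    rw [hSZ, hS4X] at h1
    have hk4 : ∀ g, g * k ^ 4 = k ^ 4 * g := fun g => ((show Commute g k from hkc g).pow_right 4).eq
    have h2 : Z * k' * (X ^ 9 * k ^ 4) = (Z * X ^ 9) * (k' * k ^ 4) := by
      calc Z * k' * (X ^ 9 * k ^ 4) = Z * (k' * (X ^ 9 * k ^ 4)) := by group
        _ = Z * ((X ^ 9 * k ^ 4) * k') := by rw [hkc' (X ^ 9 * k ^ 4)]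
        _ = Z * X ^ 9 * (k ^ 4 * k') := by group
        _ = _ := by rw [hkc' (k ^ 4)]
    have h4 : c * (X ^ 9 * k ^ 4 * (Z * k')) = c * (X ^ 9 * Z) * (k' * k ^ 4) := by
      calc c * (X ^ 9 * k ^ 4 * (Z * k')) = c * (X ^ 9 * (k ^ 4 * (Z * k'))) := by group
        _ = c * (X ^ 9 * ((Z * k') * k ^ 4)) := by rw [hk4 (Z * k')]
        _ = _ := by group
    rw [h2, h4] at h1
    exact mul_right_cancel h1
  have c8 : c ^ 8 = 1 := by
    have h1 := hcp 9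
    rw [e9] at h1
    have h2 := mul_right_cancel h1
    have h4 : c ^ 9 = c ^ 8 * c := pow_succ c 8
    rw [h4] at h2
    exact mul_eq_right.1 h2.symm
  have c1 : c = 1 := one_of_pows c8 c5
  have hzx : Z * X = X * Z := by rw [e1, c1, one_mul]
  obtain ⟨a, b, d⟩ := base hkc hX5 hY hSY hZ hzx
  exact ⟨hzx, a, b, d⟩

end lift

section two

variable {k : Type*} [Field k] {V : Type*} [AddCommGroup V] [Module k V]

/-- Weight vectors on two levels. -/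
theorem linearIndependent_two {ι κ : Type*} [Fintype ι] [Fintype κ] (f : V →ₗ[k] V) (μ : ι → k)
    (hμ : Function.Injective μ) (g : ι → V →ₗ[k] V) (ν : ι → κ → k) (hν : ∀ i, Function.Injective (ν i))
    (w : ι × κ → V) (h0 : ∀ p, w p ≠ 0) (hf : ∀ p, f (w p) = μ p.1 • w p)
    (hg : ∀ i j, g i (w (i, j)) = ν i j • w (i, j)) : LinearIndependent k w := by
  classical
  rw [Fintype.linearIndependent_iff]
  intro c hc
  set u : ι → V := fun i => ∑ j, c (i, j) • w (i, j) with hu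
  have hu1 : ∑ i, u i = 0 := by rw [← hc, Fintype.sum_prod_type]
  have hfu : ∀ i, f (u i) = μ i • u i := by
    intro i
    rw [hu, map_sum, Finset.smul_sum]
    refine Finset.sum_congr rfl fun j _ => ?_
    rw [map_smul, hf, smul_comm]
  have hu0 : ∀ i, u i = 0 := by
    by_contra hcon
    push Not at hcon
    obtain ⟨i₀, hi₀⟩ := hcon
    have h1 := linearIndependent_of_weights (k := k) (ι := {i // u i ≠ 0}) (J := Unit) (fun _ => f) (fun i => u i.1)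
      (fun i _ => μ i.1) (fun i => i.2) (fun i _ => hfu i.1) (fun i j hij => Subtype.ext (hμ (congrFun hij ())))
    rw [Fintype.linearIndependent_iff] at h1
    have h2 := h1 (fun _ => 1) (by
      simp only [one_smul]
      have h3 : ∑ i : {i // u i ≠ 0}, u i.1 = ∑ i, u i := by
        rw [← Finset.sum_filter_of_ne (p := fun i => u i ≠ 0) (fun i _ h => h)]
        exact (Finset.sum_subtype _ (fun i => by simp) u).symm
      rw [h3, hu1]) ⟨i₀, hi₀⟩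
    exact one_ne_zero h2
  rintro ⟨i, j⟩
  have h1 := linearIndependent_of_weights (k := k) (J := Unit) (fun _ => g i) (fun j => w (i, j)) (fun j _ => ν i j)
    (fun j => h0 _) (fun j _ => hg i j) (fun a b hab => hν i (congrFun hab ()))
  rw [Fintype.linearIndependent_iff] at h1
  exact h1 (fun j => c (i, j)) (hu0 i) j

end two

/-- **The bound.** -/
theorem ls_five {T : Type u} [Group T] [IsSimpleGroup T] {x s y z : T} (hy : y = s * x * s⁻¹)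
    (hz : z = x * y * x⁻¹ * y⁻¹) (hx : x ^ 5 = 1) (h3 : s * y * s⁻¹ = x ^ 3) (hzx : z * x = x * z) (hne : z ≠ 1) :
    LS.{u, v, w} 5 20 T := by
  apply LS.of_core
  intro P _ π k _ _ V _ _ _ ρ h
  obtain ⟨X, hX⟩ := h.surj x
  obtain ⟨S, hS⟩ := h.surj s
  obtain ⟨Y, hY⟩ : ∃ Y, Y = S * X * S⁻¹ := ⟨_, rfl⟩
  obtain ⟨Z, hZ⟩ : ∃ Z, Z = X * Y * X⁻¹ * Y⁻¹ := ⟨_, rfl⟩
  have hYy : π Y = y := by rw [hY, map_mul, map_mul, map_inv, hX, hS, ← hy]
  have hZz : π Z = z := by rw [hZ, map_mul, map_mul, map_mul, map_inv, map_inv, hX, hYy, ← hz]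
  obtain ⟨hZX, hZ5, hSZ, hZY⟩ := lift (π := π) (fun c hc g => h.comm_ker hc g) hY hZ (by rw [hX, hx])
    (by rw [hS, hYy, hX, h3]) (by rw [hZz, hX, hzx])
  have h5 : ((5 : ℕ) : k) ≠ 0 := h.rk
  have hρZ : ρ Z ≠ 1 := h.ne_one (by rw [hZz]; exact hne)
  obtain ⟨v, χ, hv0, hv, hχ⟩ := exists_weight (k := k) (V := V) (J := Bool) (fun b => if b then ρ Z else ρ X)
    (by
      intro i j
      cases i <;> cases j <;> simp only [Bool.false_eq_true, if_true, if_false, ← map_mul, hZX])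
    (j0 := true) h5 (by simp only [if_true, ← map_pow, hZ5, map_one]) (by simpa using hρZ)
  set a := χ false with ha
  set l := χ true with hl
  have hXv : ρ X v = a • v := by simpa using hv false
  have hZv : ρ Z v = l • v := by simpa using hv true
  have hpow : ∀ n : ℕ, ρ (Z ^ n) v = l ^ n • v := by
    intro n
    induction n with
    | zero => simp
    | succ n ih => rw [pow_succ, map_mul, Module.End.mul_apply, hZv, map_smul, ih, smul_smul, pow_succ, mul_comm]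
  have hl5 : l ^ 5 = 1 := by
    have h1 := hpow 5
    rw [hZ5, map_one, Module.End.one_apply] at h1
    have h2 : (l ^ 5 - 1) • v = 0 := by rw [sub_smul, one_smul, ← h1, sub_self]
    exact sub_eq_zero.1 ((smul_eq_zero.1 h2).resolve_right hv0)
  have hord : orderOf l = 5 := by
    have : Fact (Nat.Prime 5) := ⟨Nat.prime_five⟩
    exact orderOf_eq_prime hl5 hχ
  have hprim : IsPrimitiveRoot l 5 := by
    rw [← hord]
    exact IsPrimitiveRoot.orderOf l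
  have ha0 : a ≠ 0 := by
    intro h0
    rw [h0, zero_smul] at hXv
    exact h.ne_zero X hv0 hXv
  have hXY : X * Y = Z * (Y * X) := by rw [hZ]; group
  -- `X Y ^ j = Z ^ j Y ^ j X`
  have hXYj : ∀ j : ℕ, X * Y ^ j = Y ^ j * Z ^ j * X := by
    intro j
    induction j with
    | zero => simp
    | succ j ih =>
      have c1 : Commute (Z ^ j) Y := (show Commute Z Y from hZY).pow_left j
      calc X * Y ^ (j + 1) = (X * Y ^ j) * Y := by rw [pow_succ, mul_assoc]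
        _ = Y ^ j * Z ^ j * (X * Y) := by rw [ih]; group
        _ = Y ^ j * Z ^ j * (Z * Y * X) := by rw [hXY]; group
        _ = Y ^ j * Z ^ j * (Y * Z * X) := by rw [hZY]
        _ = Y ^ j * (Z ^ j * Y) * Z * X := by group
        _ = Y ^ j * (Y * Z ^ j) * Z * X := by rw [c1.eq]
        _ = _ := by rw [pow_succ Y, pow_succ Z]; group
  -- `Z S = S Z ^ 3`
  have hZS : Z * S = S * Z ^ 3 := by
    have h1 : S * Z ^ 3 * S⁻¹ = Z := by
      have h2 : S * Z ^ 3 * S⁻¹ = (S * Z * S⁻¹) ^ 3 := conj_pow.symm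
      rw [h2, hSZ, ← pow_mul, show 2 * 3 = 5 + 1 from rfl, pow_succ, hZ5, one_mul]
    calc Z * S = (S * Z ^ 3 * S⁻¹) * S := by rw [h1]
      _ = S * Z ^ 3 := by group
  have hZSn : ∀ n : ℕ, Z ^ n * S = S * Z ^ (3 * n) := by
    intro n
    induction n with
    | zero => simp
    | succ n ih =>
      calc Z ^ (n + 1) * S = Z ^ n * (Z * S) := by rw [pow_succ, mul_assoc]
        _ = (Z ^ n * S) * Z ^ 3 := by rw [hZS, mul_assoc]
        _ = S * (Z ^ (3 * n) * Z ^ 3) := by rw [ih, mul_assoc]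
        _ = _ := by rw [← pow_add, show 3 * n + 3 = 3 * (n + 1) from rfl]
  have hZSi : ∀ i : ℕ, Z * S ^ i = S ^ i * Z ^ 3 ^ i := by
    intro i
    induction i with
    | zero => simp
    | succ i ih =>
      calc Z * S ^ (i + 1) = (Z * S ^ i) * S := by rw [pow_succ, mul_assoc]
        _ = S ^ i * (Z ^ 3 ^ i * S) := by rw [ih, mul_assoc]
        _ = _ := by rw [hZSn, pow_succ S, pow_succ 3, mul_comm 3, mul_assoc]
  have key := linearIndependent_two (k := k) (ι := Fin 4) (κ := Fin 5) (ρ Z) (fun i => l ^ 3 ^ (i : ℕ))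
    (by
      intro i j hij
      have h1 : l ^ (3 ^ (i : ℕ) % 5) = l ^ (3 ^ (j : ℕ) % 5) := by
        have e : ∀ n : ℕ, l ^ (n % 5) = l ^ n := fun n => by
          have := pow_mod_orderOf l n
          rwa [hord] at this
        rw [e, e]
        exact hij
      have h2 := hprim.pow_inj (Nat.mod_lt _ (by norm_num)) (Nat.mod_lt _ (by norm_num)) h1
      have h4 : ∀ i j : Fin 4, 3 ^ (i : ℕ) % 5 = 3 ^ (j : ℕ) % 5 → i = j := by decide
      exact h4 i j h2)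
    (fun i => ρ (S ^ (i : ℕ) * X * (S ^ (i : ℕ))⁻¹)) (fun _ j => a * l ^ (j : ℕ))
    (by
      intro i j j' hjj
      have h1 := mul_left_cancel₀ ha0 hjj
      exact Fin.ext (hprim.pow_inj j.2 j'.2 h1))
    (fun p => ρ (S ^ (p.1 : ℕ) * Y ^ (p.2 : ℕ)) v) (fun p => h.ne_zero _ hv0)
    (by
      rintro ⟨i, j⟩
      change ρ Z (ρ (S ^ (i : ℕ) * Y ^ (j : ℕ)) v) = l ^ 3 ^ (i : ℕ) • ρ (S ^ (i : ℕ) * Y ^ (j : ℕ)) v
      have c1 : Commute (Z ^ 3 ^ (i : ℕ)) (Y ^ (j : ℕ)) := (show Commute Z Y from hZY).pow_pow _ _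
      rw [← Module.End.mul_apply, ← map_mul, ← mul_assoc, hZSi, mul_assoc, c1.eq, ← mul_assoc, map_mul,
        Module.End.mul_apply, hpow, map_smul])
    (by
      intro i j
      change ρ (S ^ (i : ℕ) * X * (S ^ (i : ℕ))⁻¹) (ρ (S ^ (i : ℕ) * Y ^ (j : ℕ)) v) =
        (a * l ^ (j : ℕ)) • ρ (S ^ (i : ℕ) * Y ^ (j : ℕ)) v
      have e : S ^ (i : ℕ) * X * (S ^ (i : ℕ))⁻¹ * (S ^ (i : ℕ) * Y ^ (j : ℕ)) =
          (S ^ (i : ℕ) * Y ^ (j : ℕ)) * (Z ^ (j : ℕ) * X) := by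
        calc S ^ (i : ℕ) * X * (S ^ (i : ℕ))⁻¹ * (S ^ (i : ℕ) * Y ^ (j : ℕ)) = S ^ (i : ℕ) * (X * Y ^ (j : ℕ)) := by group
          _ = _ := by rw [hXYj]; group
      rw [← Module.End.mul_apply, ← map_mul, e]
      generalize S ^ (i : ℕ) * Y ^ (j : ℕ) = W
      rw [map_mul, Module.End.mul_apply, map_mul (f := ρ) (Z ^ (j : ℕ)) X, Module.End.mul_apply, hXv, map_smul, hpow,
        smul_smul, map_smul])
  have h1 := key.fintype_card_le_finrank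
  simpa using h1

end Cfsg.Agent.H517.EP
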